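import Cfsg.Agent.Perm.DegSec
import Cfsg.Agent.PrimeOne.Good
import Cfsg.Agent.PrimeOne.Brauer3
import Cfsg.Agent.Spor.CharKit2
import Cfsg.Agent.S0876

/-!
# Sylow subgroups of prime order: the simple section, the parameters, and the principal block
for a self-centralizing Sylow subgroup with automizer of order three
-/

set_option autoImplicit false

open scoped ComplexConjugate

namespace Cfsg.Lib.Deg45

open Subgroup Cfsg.Lib.Perm.DegSec Cfsg.Lib.PrimeOne Cfsg.Lib.Block Cfsg.Lib.Block.Princ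
  Cfsg.Lib.Char Cfsg.Lib.Spor

variable {G : Type*} [Group G] [Finite G] {p : ℕ} [hp : Fact p.Prime]

/-- The nonabelian simple section attached to a non-normal Sylow subgroup of prime order. -/
theorem exists_sec (h1 : ¬ p ^ 2 ∣ Nat.card G) (hs : Nat.card (Sylow p G) ≠ 1)
    (h : ∀ d, IsPrimePow d → d ∣ Nat.card G → d % p ≠ 1) :
    ∃ (K : Subgroup G) (N : Subgroup K) (_ : N.Normal), IsSimpleGroup (K ⧸ N) ∧
      ¬ IsMulCommutative (K ⧸ N) ∧ p ∣ Nat.card (K ⧸ N) := by
  obtain ⟨P⟩ : Nonempty (Sylow p G) := inferInstance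
  have hK := eq_top_of_normalClosure P.isPGroup'
  have hPK : (P : Subgroup G) ≤ normalClosure ((P : Subgroup G) : Set G) := le_normalClosure
  generalize_proofs at hK
  set K := normalClosure ((P : Subgroup G) : Set G)
  have hK1 : Nat.card (Sylow p K) ≠ 1 := fun e => hs (by
    have : Subsingleton (Sylow p K) := (Nat.card_eq_one_iff_unique.1 e).1
    have h2 : (((P.subtype hPK : Sylow p K) : Subgroup K).map K.subtype).Normal := inferInstance
    rw [Sylow.coe_subtype, map_subgroupOf_eq_of_le hPK] at h2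
    have := P.unique_of_normal h2
    exact Nat.card_unique)
  have : Nontrivial K := by
    by_contra! e
    exact hK1 (Nat.card_eq_one_iff_unique.2 ⟨⟨fun a b => Sylow.ext (Subsingleton.elim _ _)⟩,
      inferInstance⟩)
  obtain ⟨N, hN, hNt, hS⟩ := Gold.TF.exists_normal_simple_quotient K
  have hpN : p ∣ N.index := by
    by_contra e
    exact hNt (hK N hN e)
  refine ⟨K, N, hN, hS, fun hc => ?_, hpN⟩
  have hi : N.index = p := by
    let _ : CommGroup (K ⧸ N) := { mul_comm := hc.is_comm.comm }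
    exact ((Nat.prime_dvd_prime_iff_eq hp.out IsSimpleGroup.prime_card).1 hpN).symm
  have hNp : ¬ p ∣ Nat.card N := fun e => h1 (by
    refine Dvd.dvd.trans ?_ (card_subgroup_dvd_card K)
    rw [← card_mul_index N, hi, sq]
    exact Nat.mul_dvd_mul_right e p)
  set Q := P.subtype hPK
  have h2 := (le_centralizer_of Q.isPGroup' le_normalizer_of_normal hNp fun d a b =>
    h d a (b.trans ((card_subgroup_dvd_card N).trans (card_subgroup_dvd_card K)))).trans
      (centralizer_le_normalizer _)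
  refine hK1 (Q.card_eq_index_normalizer.trans (((Nat.dvd_prime hp.out).1
    ((index_dvd_of_le h2).trans hi.dvd)).resolve_right fun e => Q.not_dvd_index ?_))
  exact (dvd_of_eq e.symm).trans (index_dvd_of_le le_normalizer)

omit hp [Finite G] in
theorem card_sec_dvd (K : Subgroup G) (N : Subgroup K) [N.Normal] :
    Nat.card (K ⧸ N) ∣ Nat.card G := (card_quotient_dvd_card N).trans (card_subgroup_dvd_card K)

omit hp in
/-- A section of full order is the whole group. -/
theorem equiv_sec (K : Subgroup G) (N : Subgroup K) [N.Normal]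
    (h : Nat.card (K ⧸ N) = Nat.card G) : Nonempty (G ≃* K ⧸ N) := by
  have h1 := Nat.le_of_dvd Nat.card_pos (card_quotient_dvd_card N)
  exact ⟨(MulEquiv.ofBijective K.subtype (K.subtype_injective.bijective_of_nat_card_le
    (h ▸ h1))).symm.trans (MulEquiv.ofBijective (QuotientGroup.mk' N)
      ((QuotientGroup.mk'_surjective N).bijective_of_nat_card_le (h ▸ K.card_le_card_group)))⟩

theorem card_syl (h0 : p ∣ Nat.card G) (h1 : ¬ p ^ 2 ∣ Nat.card G) (P : Sylow p G) :
    Nat.card P = p := by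
  obtain ⟨k, hk⟩ := P.isPGroup'.exists_card_eq
  have h2 := P.dvd_card_of_dvd_card h0
  have h3 : k < 2 := by
    by_contra! c
    exact h1 ((pow_dvd_pow p c).trans (hk ▸ card_subgroup_dvd_card (P : Subgroup G)))
  rw [hk] at h2 ⊢
  interval_cases k
  · exact absurd (Nat.dvd_one.1 h2) hp.out.ne_one
  · exact pow_one p

omit hp in
theorem dvd_sub_val {q : ℕ} (hq : q.Prime) (χ : IrrCharacter G) {u v : G} (huv : Commute u v)
    {k : ℕ} (hu : orderOf u = q ^ k) (hv : ¬ q ∣ orderOf v) {m n : ℤ}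
    (h1 : (χ : G → ℂ) (u * v) = m) (h2 : (χ : G → ℂ) v = n) : (q : ℤ) ∣ m - n := by
  obtain ⟨M, hM⟩ := exists_isPModular hq
  have := Agent.S0876.ideal_char_sub_pRegular hM χ.2.isCharacter huv hu hv
  rw [h1, h2, ← Int.cast_sub] at this
  exact (Loc.ideal_intCast_iff hM _).1 this

omit hp [Finite G] [Group G] in
theorem dvd_three {a b c i j k d : ℕ} (ha : a.Prime) (hb : b.Prime) (hc : c.Prime)
    (h : d ∣ a ^ i * b ^ j * c ^ k) : ∃ u ≤ i, ∃ v ≤ j, ∃ w ≤ k, d = a ^ u * b ^ v * c ^ w := by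
  obtain ⟨_, _, h1, h2, rfl⟩ := (Nat.dvd_mul).1 h
  obtain ⟨_, _, h3, h4, rfl⟩ := (Nat.dvd_mul).1 h1
  obtain ⟨u, hu, rfl⟩ := (Nat.dvd_prime_pow ha).1 h3
  obtain ⟨v, hv, rfl⟩ := (Nat.dvd_prime_pow hb).1 h4
  obtain ⟨w, hw, rfl⟩ := (Nat.dvd_prime_pow hc).1 h2
  exact ⟨u, hu, v, hv, w, hw, rfl⟩

/-- The class multiplication form. -/
def qf (a b x y : ℤ) : ℤ :=
  a * b * (a + b - 1) - b * (a + b - 1) * x ^ 2 - a * (a + b - 1) * y ^ 2 + a * b * (x + y - 1) ^ 2

/-- The principal block with the degree equation `1 + θ(1) = a + b`. -/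
structure Tri (p a b : ℕ) (χ ψ θ : IrrCharacter G) (x y : G → ℤ) : Prop where
  dχ : deg χ = a
  dψ : deg ψ = b
  dθ : deg θ + 1 = a + b
  vχ : ∀ g, (χ : G → ℂ) g = x g
  vψ : ∀ g, (ψ : G → ℂ) g = y g
  vθ : ∀ g, ¬ p ∣ orderOf g → (θ : G → ℂ) g = (x g + y g - 1 : ℤ)
  ge : ∀ g, ¬ p ∣ orderOf g → 0 ≤ qf a b (x g) (y g)
  eq : ∀ g, orderOf g = 2 → qf a b (x g) (y g) = 0
  ord : ∀ g : G, p ∣ orderOf g → orderOf g = p

variable [IsSimpleGroup G] (hG : ¬ IsMulCommutative G) {P : Sylow p G} (hP : Nat.card P = p)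
include hG hP

theorem params : ∃ e c, Nat.card (Sylow p G) % p = 1 ∧ 1 < Nat.card (Sylow p G) ∧ 2 ≤ e ∧
    e ∣ p - 1 ∧ Nat.card G = p * (Nat.card (Sylow p G) * (e * c)) ∧
    Nat.card (centralizer ((P : Subgroup G) : Set G)) = p * c ∧
    (centralizer ((P : Subgroup G) : Set G)).relIndex (normalizer ((P : Subgroup G) : Set G)) = e := by
  obtain ⟨c, hc⟩ : p ∣ Nat.card (centralizer ((P : Subgroup G) : Set G)) :=
    (dvd_of_eq hP.symm).trans (card_dvd_of_le (le_centralizer_self hP))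
  obtain ⟨t, S, y, het, -⟩ := exists_good hG hP hc rfl
  refine ⟨_, c, Eq.trans (card_sylow_modEq_one p G) (Nat.mod_eq_of_lt hp.out.one_lt),
    one_lt_card_sylow hG ((dvd_of_eq hP.symm).trans (card_subgroup_dvd_card _)),
    two_le_relIndex hP (commutator_eq_top hG), ⟨t, by omega⟩, ?_, hc, rfl⟩
  rw [← card_mul_index (centralizer ((P : Subgroup G) : Set G)), index_centralizer, hc]
  ring

variable (hC : Nat.card (centralizer ((P : Subgroup G) : Set G)) = p)
  (he : (centralizer ((P : Subgroup G) : Set G)).relIndex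
    (normalizer ((P : Subgroup G) : Set G)) = 3)
include hC he

omit hG hP [IsSimpleGroup G] [Finite G] hp in
theorem card_norm : Nat.card (normalizer ((P : Subgroup G) : Set G)) = p * 3 := by
  have h1 := (centralizer ((P : Subgroup G) : Set G)).subgroupOf
    (normalizer ((P : Subgroup G) : Set G)) |>.card_mul_index
  rw [Nat.card_congr (subgroupOfEquivOfLe (centralizer_le_normalizer _)).toEquiv, hC] at h1
  rw [← h1, ← he, relIndex]

theorem exists_tri {a b m : ℕ} (hm : Nat.card G = p * m) (hab : a ≠ b) (L : List ℤ)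
    (h1 : ∀ d : ℕ, d ∣ m → 1 < d → (d % p = 1 → (d : ℤ) ∈ L) ∧ ((d + 1) % p = 0 → -(d : ℤ) ∈ L))
    (h2 : ∀ u ∈ L, ∀ v ∈ L, (1 + u + v).natAbs ∣ m → u = -a ∧ v = -b ∨ u = -b ∧ v = -a) :
    ∃ (χ ψ θ : IrrCharacter G) (x y : G → ℤ), Tri p a b χ ψ θ x y := by
  classical
  have := Fintype.ofFinite G
  obtain ⟨M, hM⟩ := exists_isPModular hp.out
  obtain ⟨t, X, Y, δ, ε, h⟩ := exists_B0 hM P hP
  rw [he] at h
  have hCP : centralizer ((P : Subgroup G) : Set G) = P :=
    (eq_of_le_of_card_ge (le_centralizer_self hP) (hC.trans hP.symm).le).symm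
  obtain ⟨c, hcP, hc1⟩ := exists_ne_one hP
  have hc : p ∣ orderOf c := by rw [orderOf_of_mem hP hcP hc1]
  have hidx : (centralizer ({c} : Set G)).index = m := by
    have := card_mul_index (centralizer ({c} : Set G))
    rw [centralizer_singleton_eq hP hcP hc1, hC, hm, ← centralizer_singleton_eq hP hcP hc1] at this
    exact Nat.eq_of_mul_eq_mul_left hp.out.pos this
  obtain ⟨θ, hθ⟩ := h.Y_nonempty
  have hL : ∀ φ ∈ X, φ ≠ triv G → δ φ * deg φ ∈ L := fun φ hφ hne => by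
    have h3 := h1 _ (hidx ▸ h.deg_X_dvd hφ hc) (one_lt_deg hG hne)
    have h4 := h.deg_X_modEq' hφ
    rcases h.sign_X φ hφ with k | k <;> rw [k] at h4 ⊢
    · have h5 : deg φ ≡ 1 [MOD p] := Int.natCast_modEq_iff.1 (by simpa using h4)
      rw [Nat.ModEq, Nat.mod_eq_of_lt hp.out.one_lt] at h5
      simpa using h3.1 h5
    · refine (neg_one_mul (deg φ : ℤ)).symm ▸ h3.2 (Nat.mod_eq_zero_of_dvd
        (Int.natCast_dvd_natCast.1 ?_))
      simpa using h4.symm.dvd
  obtain ⟨χ, ψ, hne, hX, hχ, hψ⟩ : ∃ χ ψ, χ ≠ ψ ∧ X.erase (triv G) = {χ, ψ} ∧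
      δ χ * deg χ = -a ∧ δ ψ * deg ψ = -b := by
    obtain ⟨χ, ψ, hne, hX⟩ := Finset.card_eq_two.1 (show (X.erase (triv G)).card = 2 by
      rw [Finset.card_erase_of_mem h.triv_mem, h.card_X])
    have k1 := Finset.mem_erase.1 (hX ▸ Finset.mem_insert_self χ {ψ} : χ ∈ X.erase (triv G))
    have k2 := Finset.mem_erase.1 (hX ▸ by simp : ψ ∈ X.erase (triv G))
    have k3 := h.deg_rel hθ
    rw [← Finset.add_sum_erase _ _ h.triv_mem, hX, Finset.sum_pair hne, h.δ_triv, deg_triv,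
      ← add_assoc, Nat.cast_one, mul_one] at k3
    rcases h2 _ (hL χ k1.2 k1.1) _ (hL ψ k2.2 k2.1) (by
      rw [← k3, ← hidx]
      have := h.deg_Y_dvd hθ hc
      rcases h.sign with k | k <;> simpa [k] using this) with k | k
    · exact ⟨χ, ψ, hne, hX, k⟩
    · exact ⟨ψ, χ, hne.symm, hX.trans (Finset.pair_comm _ _), k.2, k.1⟩
  have k1 := Finset.mem_erase.1 (hX ▸ Finset.mem_insert_self χ {ψ} : χ ∈ X.erase (triv G))
  have k2 := Finset.mem_erase.1 (hX ▸ by simp : ψ ∈ X.erase (triv G))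
  have l1 := one_lt_deg hG k1.1
  have l2 := one_lt_deg hG k2.1
  obtain ⟨s1, rfl⟩ : δ χ = -1 ∧ deg χ = a := by
    rcases h.sign_X χ k1.2 with k | k <;> rw [k] at hχ ⊢ <;> omega
  obtain ⟨s2, rfl⟩ : δ ψ = -1 ∧ deg ψ = b := by
    rcases h.sign_X ψ k2.2 with k | k <;> rw [k] at hψ ⊢ <;> omega
  have sX : ∀ {A : Type} [AddCommMonoid A] (f : IrrCharacter G → A),
      ∑ φ ∈ X, f φ = f (triv G) + (f χ + f ψ) := fun f => by
    rw [← Finset.add_sum_erase _ _ h.triv_mem, hX, Finset.sum_pair hne]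
  obtain ⟨rfl, dθ⟩ : ε = -1 ∧ deg θ + 1 = deg χ + deg ψ := by
    have k3 := h.deg_rel hθ
    rw [sX, h.δ_triv, deg_triv, s1, s2] at k3
    rcases h.sign with k | k <;> rw [k] at k3 ⊢ <;> omega
  have uq : ∀ φ ∈ X, φ ≠ triv G → ∀ φ', deg φ' = deg φ → φ' = φ := fun φ hφ hφ1 φ' hd => by
    have m1 : ∀ φ ∈ X, φ = triv G ∨ φ = χ ∨ φ = ψ := fun φ hφ => or_iff_not_imp_left.2 fun k => by
      simpa [hX] using Finset.mem_erase.2 ⟨k, hφ⟩
    have m2 := one_lt_deg hG hφ1
    have m3 : ¬ p ∣ deg φ' := fun k => by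
      have k4 := (Int.natCast_dvd_natCast.2 (hd ▸ k)).add (h.deg_X_modEq' hφ).dvd
      rw [add_sub_cancel] at k4
      have k5 : (p : ℤ) ∣ 1 := h.sign_X_mul_self hφ ▸ k4.mul_left _
      exact hp.out.ne_one (Nat.dvd_one.1 (by exact_mod_cast k5))
    rcases (h.union φ').1 (mem_principalBlock_of_not_dvd hP hCP.le hM m3) with k | k
    · rcases m1 φ' k with rfl | rfl | rfl <;> rcases m1 φ hφ with rfl | rfl | rfl <;>
        first | rfl | exact absurd rfl hφ1 | exact absurd hd hab | exact absurd hd.symm hab |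
          (rw [deg_triv] at hd; omega)
    · rw [h.deg_Y_eq k hθ] at hd
      rcases m1 φ hφ with rfl | rfl | rfl
      · exact absurd rfl hφ1
      all_goals omega
  choose x hx using CKit.exists_int_of_unique (uq χ k1.2 k1.1)
  choose y hy using CKit.exists_int_of_unique (uq ψ k2.2 k2.1)
  have vθ : ∀ θ' ∈ Y, ∀ g, ¬ p ∣ orderOf g → (θ' : G → ℂ) g = (x g + y g - 1 : ℤ) :=
    fun θ' hθ' g hg => by
      have := h.rel θ' hθ' g hg
      rw [sX, h.δ_triv, s1, s2, hx, hy] at this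
      simp only [triv_apply] at this
      push_cast at this ⊢
      linear_combination -this
  have key : ∀ g, ¬ p ∣ orderOf g → (Nat.card G : ℤ) * qf (deg χ) (deg ψ) (x g) (y g) =
      (Nat.card {q : G × G // IsConj g q.1 ∧ IsConj g q.2 ∧ q.1 * q.2 = c} *
        Nat.card (centralizer ({g} : Set G)) ^ 2 * (deg χ * deg ψ * deg θ) : ℕ) := fun g hg => by
    have e := CKit.card_pairs g c
    rw [← Finset.sum_subset (Finset.subset_univ (irrFin (principalBlock M G))) fun φ _ hφ => by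
      rw [apply_eq_zero_of_dvd_degree hp.out (not_sq_dvd hP) φ (by_contra fun k => hφ
        (mem_irrFin.2 (mem_principalBlock_of_not_dvd hP hCP.le hM k))) hc]; simp,
      h.sum_princ, sX, Finset.sum_congr (s₁ := Y) rfl
        (g := fun φ => ((x g + y g - 1 : ℤ) : ℂ) ^ 2 / deg θ * conj ((φ : G → ℂ) c))
        fun φ hφ => by rw [vθ φ hφ g hg, show CKit.dg φ = deg θ from h.deg_Y_eq hφ hθ]; ring,
      ← Finset.mul_sum, ← map_sum, h.sum_Y c hc, h.val_X χ k1.2 c hc, h.val_X ψ k2.2 c hc, s1, s2,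
      hx, hy, CKit.dg_triv] at e
    have d1 : ((deg χ : ℕ) : ℂ) ≠ 0 := Nat.cast_ne_zero.2 (by omega)
    have d2 : ((deg ψ : ℕ) : ℂ) ≠ 0 := Nat.cast_ne_zero.2 (by omega)
    have d3 : ((deg θ : ℕ) : ℂ) ≠ 0 := Nat.cast_ne_zero.2 (by omega)
    have d4 : ((deg θ : ℕ) : ℂ) = deg χ + deg ψ - 1 := by
      rw [eq_sub_iff_add_eq]; exact_mod_cast dθ
    apply Int.cast_injective (α := ℂ)
    simp only [triv_apply, Int.reduceNeg, Int.cast_neg, Int.cast_one, neg_neg, map_neg, map_one]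
      at e
    push_cast at e ⊢
    rw [e, qf]
    push_cast
    rw [← d4]
    field_simp
    ring
  have hn : (0 : ℤ) < Nat.card G := Nat.cast_pos.2 Nat.card_pos
  have h3 : 3 * t + 1 = p := by rw [h.card_eq, factorization_eq_one hP, pow_one]
  have h4 : Odd p := hp.out.odd_of_ne_two (by omega)
  refine ⟨χ, ψ, θ, x, y, rfl, rfl, dθ, hx, hy, vθ θ hθ, fun g hg => ?_, fun g hg => ?_,
    fun g hg => ?_⟩
  · exact (mul_nonneg_iff_of_pos_left hn).1 (key g hg ▸ Nat.cast_nonneg _)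
  · have e := key g (by
      rw [hg]; exact fun k => by have := Nat.le_of_dvd two_pos k; have := h.t_pos; omega)
    rw [show Nat.card {q : G × G // IsConj g q.1 ∧ IsConj g q.2 ∧ q.1 * q.2 = c} = 0 from
      Nat.card_eq_zero.2 (Or.inl ⟨fun ⟨q, a1, a2, a3⟩ => ?_⟩), zero_mul, zero_mul] at e
    · exact (mul_eq_zero.1 e).resolve_left hn.ne'
    have gg : g * g = 1 := by rw [← sq, ← hg, pow_orderOf_eq_one]
    have b1 := CKit.inverts_of_mul_eq (CKit.mul_self_of_isConj gg a1)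
      (CKit.mul_self_of_isConj gg a2) a3
    have b2 : q.1 ∈ normalizer ((P : Subgroup G) : Set G) := by
      rw [← zpowers_eq hP hcP hc1]
      refine mem_normalizer_fintype (S := (zpowers c : Set G)) ?_
      rintro _ ⟨k, rfl⟩
      exact ⟨-k, by simp only [← conj_zpow, b1]; simp⟩
    have b3 := Subgroup.orderOf_dvd_natCard _ b2
    obtain ⟨w, hw⟩ := isConj_iff.1 a1
    rw [card_norm hC he, ← hw, show orderOf (w * g * w⁻¹) = 2 from
      ((MulAut.conj w).orderOf_eq g).trans hg] at b3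
    exact (h4.mul (by decide : Odd 3)).not_two_dvd_nat b3
  · obtain ⟨k, hk⟩ := hg
    have k0 : orderOf g ≠ 0 := (orderOf_pos g).ne'
    have o1 : orderOf (g ^ k) = p := by
      rw [orderOf_pow' _ (by rintro rfl; simp [hk] at k0), hk, Nat.gcd_mul_left_left,
        Nat.mul_div_cancel _ (Nat.pos_of_ne_zero (by rintro rfl; simp [hk] at k0))]
    obtain ⟨Q, hQ⟩ := (IsPGroup.of_card (n := 1) (G := zpowers (g ^ k))
      (by rw [Nat.card_zpowers, o1, pow_one])).exists_le_sylow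
    obtain ⟨w, rfl⟩ := MulAction.exists_smul_eq G Q P
    have o2 : w * g ^ k * w⁻¹ ∈ ((w • Q : Sylow p G) : Subgroup G) :=
      smul_mem_pointwise_smul _ (MulAut.conj w) _ (hQ (mem_zpowers _))
    have o3 : w * g * w⁻¹ ∈ ((w • Q : Sylow p G) : Subgroup G) := by
      rw [← hCP, ← centralizer_singleton_eq hP o2 (by
        rw [Ne, ← orderOf_eq_one_iff, show orderOf (w * g ^ k * w⁻¹) = p from
          ((MulAut.conj w).orderOf_eq _).trans o1]
        exact hp.out.ne_one), mem_centralizer_singleton_iff]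
      group
    rw [← (MulAut.conj w).orderOf_eq g]
    refine orderOf_of_mem hP o3 fun e => hp.out.ne_one (Nat.eq_one_of_mul_eq_one_right (n := k) ?_)
    rw [← hk, ← (MulAut.conj w).orderOf_eq g, orderOf_eq_one_iff]
    exact e

end Cfsg.Lib.Deg45
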